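import Groth.Agent.FormalB.GrTildeSect

/-!
# The stalks of `M(n)~`: evaluation is bijective onto the fractions of degree `n`
-/

set_option autoImplicit false
set_option linter.unusedSectionVars false

universe u

open CategoryTheory CategoryTheory.Limits AlgebraicGeometry TopologicalSpace Opposite

namespace Groth.Agent.Ega2.H263.GrStalk

open Groth.Agent.FormalB.GrTildeSect

variable {R A : Type u} [CommRing R] [CommRing A] [Algebra R A] {𝒜 : ℕ → Submodule R A} [GradedAlgebra 𝒜]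
variable {M : Type u} [AddCommGroup M] [Module R M] [Module A M] {ℳ : ℕ → Submodule R M}
variable [SetLike.GradedSMul 𝒜 ℳ]

/-- Every element of the fibre of `M(n)~` at `p` is a single fraction. -/
theorem exists_frac (n : ℤ) (p : ProjectiveSpectrum 𝒜) (q : GrTilde.LocMod 𝒜 (M := M) p)
    (hq : q ∈ GrTilde.tildeAt 𝒜 ℳ n p) :
    ∃ (j : ℕ) (s : A) (_ : s ∈ 𝒜 j) (hs : s ∉ p.asHomogeneousIdeal) (m : M) (_ : m ∈ zdeg ℳ (j + n)),
      q = LocalizedModule.mk m ⟨s, hs⟩ := by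
  induction hq using Submodule.span_induction with
  | mem q hq =>
    obtain ⟨i, j, m, s, hs, h, rfl⟩ := hq
    exact ⟨j, s.1, s.2, hs, m.1, mem_zdeg_of_eq h m.2, rfl⟩
  | zero =>
    exact ⟨0, 1, SetLike.GradedOne.one_mem, one_notMem p, 0, zero_mem _, (LocalizedModule.zero_mk _).symm⟩
  | add q q' _ _ hq hq' =>
    obtain ⟨j, s, hs, hsp, m, hm, rfl⟩ := hq
    obtain ⟨j', s', hs', hsp', m', hm', rfl⟩ := hq'
    refine ⟨j + j', s * s', SetLike.mul_mem_graded hs hs', mul_notMem hsp hsp', s' • m + s • m',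
      add_mem ?_ ?_, ?_⟩
    · exact smul_mem_zdeg_of_eq 𝒜 hs' hm (by push_cast; ring)
    · exact smul_mem_zdeg_of_eq 𝒜 hs hm' (by push_cast; ring)
    · rw [LocalizedModule.mk_add_mk]
      rfl
  | smul c q _ hq =>
    obtain ⟨j, s, hs, hsp, m, hm, rfl⟩ := hq
    obtain ⟨⟨i, ⟨r, hr⟩, ⟨t, ht⟩, htp⟩, rfl⟩ := HomogeneousLocalization.mk_surjective c
    refine ⟨i + j, t * s, SetLike.mul_mem_graded ht hs, mul_notMem htp hsp, r • m,
      smul_mem_zdeg_of_eq 𝒜 hr hm (by push_cast; ring), ?_⟩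
    rw [GrTilde.a0_smul_def, HomogeneousLocalization.val_mk, LocalizedModule.mk_smul_mk]
    rfl

variable (𝒜 ℳ) in
theorem surjective (n : ℤ) (p : ProjectiveSpectrum.top 𝒜) :
    Function.Surjective (TopCat.stalkToFiber (GrTilde.isLocFrac 𝒜 ℳ n) p) := by
  refine TopCat.stalkToFiber_surjective _ _ fun t => ?_
  obtain ⟨j, s, hs, hsp, m, hm, ht⟩ := exists_frac n p t.1 t.2
  let f := frac n (ProjectiveSpectrum.basicOpen 𝒜 s) hs (fun x hx => hx) hm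
  exact ⟨⟨ProjectiveSpectrum.basicOpen 𝒜 s, hsp⟩, f.1, f.2, Subtype.ext ht.symm⟩

variable (𝒜 ℳ) in
theorem injective (n : ℤ) (p : ProjectiveSpectrum.top 𝒜) :
    Function.Injective (TopCat.stalkToFiber (GrTilde.isLocFrac 𝒜 ℳ n) p) := by
  refine TopCat.stalkToFiber_injective (X := ProjectiveSpectrum.top 𝒜) _ _ fun U V fU hU fV hV h => ?_
  obtain ⟨e, g, m, he, hg, hgp, hm, w⟩ := exists_frac_at n (⟨fU, hU⟩ : GrTilde.sect 𝒜 ℳ n (op U.1)) ⟨p, U.2⟩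
  obtain ⟨e', g', m', he', hg', hgp', hm', w'⟩ :=
    exists_frac_at n (⟨fV, hV⟩ : GrTilde.sect 𝒜 ℳ n (op V.1)) ⟨p, V.2⟩
  obtain ⟨hpU, h1⟩ := w p hgp
  obtain ⟨hpV, h2⟩ := w' p hgp'
  have h3 : (fU ⟨p, hpU⟩ : GrTilde.tildeAt 𝒜 ℳ n p).1 = (fV ⟨p, hpV⟩ : GrTilde.tildeAt 𝒜 ℳ n p).1 :=
    congrArg Subtype.val h
  obtain ⟨a, ha, hz⟩ := exists_of_mk_eq (h1.symm.trans (h3.trans h2))
  have hle : ∀ y : ProjectiveSpectrum 𝒜, y ∈ ProjectiveSpectrum.basicOpen 𝒜 (a * (g * g')) →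
      a ∉ y.asHomogeneousIdeal ∧ g ∉ y.asHomogeneousIdeal ∧ g' ∉ y.asHomogeneousIdeal := by
    intro y hy
    refine ⟨fun h' => hy ?_, fun h' => hy ?_, fun h' => hy ?_⟩
    · exact Ideal.mul_mem_right _ _ h'
    · exact Ideal.mul_mem_left _ _ (Ideal.mul_mem_right _ _ h')
    · exact Ideal.mul_mem_left _ _ (Ideal.mul_mem_left _ _ h')
  let W : OpenNhds (X := ProjectiveSpectrum.top 𝒜) p :=
    ⟨ProjectiveSpectrum.basicOpen 𝒜 (a * (g * g')), mul_notMem ha (mul_notMem hgp hgp')⟩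
  let U' : OpenNhds (X := ProjectiveSpectrum.top 𝒜) p := U
  let V' : OpenNhds (X := ProjectiveSpectrum.top 𝒜) p := V
  have iU : W ⟶ U' := homOfLE fun y hy => (w y (hle y hy).2.1).1
  have iV : W ⟶ V' := homOfLE fun y hy => (w' y (hle y hy).2.2).1
  refine ⟨W, iU, iV, fun y => ?_⟩
  obtain ⟨hy1, hy2, hy3⟩ := hle y.1 y.2
  obtain ⟨hyU, h4⟩ := w y.1 hy2
  obtain ⟨hyV, h5⟩ := w' y.1 hy3
  refine Subtype.ext ?_
  refine h4.trans (Eq.trans ?_ h5.symm)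
  rw [smul_sub, sub_eq_zero] at hz
  exact mk_eq_of_smul_eq a hy1 hz

end Groth.Agent.Ega2.H263.GrStalk
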