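import Groth.Agent.FormalB.GrTildeSect

/-!
# Vanishing of `M(n)~`, in terms of sections
-/

set_option autoImplicit false

universe u

open CategoryTheory CategoryTheory.Limits AlgebraicGeometry TopologicalSpace Opposite

namespace Groth.Agent.Ega2.H263.GrZero

variable {X : Scheme.{u}}

theorem isZero_of_forall {N : X.Modules} (h : ∀ (V : X.Opens) (s : Γ(N, V)), s = 0) : IsZero N := by
  rw [IsZero.iff_id_eq_zero]
  apply Scheme.Modules.hom_ext
  intro V
  ext s
  exact (h V s).trans (h V _).symm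

theorem eq_zero_of_isZero {N : X.Modules} (h : IsZero N) (V : X.Opens) (s : Γ(N, V)) : s = 0 := by
  have h0 : (𝟙 N : N ⟶ N) = 0 := (IsZero.iff_id_eq_zero N).1 h
  have h1 : (𝟙 N : N ⟶ N).app V s = (0 : N ⟶ N).app V s := by rw [h0]
  simpa using h1

variable {R A : Type u} [CommRing R] [CommRing A] [Algebra R A] {𝒜 : ℕ → Submodule R A} [GradedAlgebra 𝒜]
variable {M : Type u} [AddCommGroup M] [Module R M] [Module A M] {ℳ : ℕ → Submodule R M}
variable [SetLike.GradedSMul 𝒜 ℳ]

/-- `M(n)~ = 0` as soon as all its sections vanish. -/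
theorem isZero_tilde_of_sect {n : ℤ}
    (h : ∀ (U : Opens (ProjectiveSpectrum.top 𝒜)) (s : GrTilde.sect 𝒜 ℳ n (op U)), s = 0) :
    IsZero (GrTilde.tilde 𝒜 ℳ n) :=
  isZero_of_forall fun V s => h V s

/-- If `M(n)~ = 0` then all its sections vanish. -/
theorem sect_eq_zero_of_isZero {n : ℤ} (h : IsZero (GrTilde.tilde 𝒜 ℳ n))
    (U : Opens (ProjectiveSpectrum.top 𝒜)) (s : GrTilde.sect 𝒜 ℳ n (op U)) : s = 0 :=
  eq_zero_of_isZero h U s

/-- `M(n)~ = 0` as soon as all the localized modules `M_x` vanish. -/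
theorem isZero_tilde_of_locMod {n : ℤ} (h : ∀ (x : ProjectiveSpectrum 𝒜) (q : GrTilde.LocMod 𝒜 (M := M) x), q = 0) :
    IsZero (GrTilde.tilde 𝒜 ℳ n) :=
  isZero_tilde_of_sect fun U s => Groth.Agent.FormalB.GrTildeSect.sect_ext fun x =>
    (h x.1 _).trans (h x.1 _).symm

/-- The localized module `M_x` vanishes if every element of `M` is killed by an element outside `x`. -/
theorem locMod_eq_zero (x : ProjectiveSpectrum 𝒜) (h : ∀ m : M, ∃ a : A, a ∉ x.asHomogeneousIdeal ∧ a • m = 0)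
    (q : GrTilde.LocMod 𝒜 (M := M) x) : q = 0 := by
  induction q using LocalizedModule.induction_on with
  | h m s =>
    obtain ⟨a, ha, hm⟩ := h m
    rw [← LocalizedModule.zero_mk s, LocalizedModule.mk_eq]
    refine ⟨⟨a, ha⟩, ?_⟩
    rw [smul_zero, smul_zero, smul_comm]
    show s • (a • m) = 0
    rw [hm, smul_zero]

end Groth.Agent.Ega2.H263.GrZero
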